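-- Team project CS3 (S4284), part GOOD, package [S1] (helper61): Step 1 of "N is abelian":
-- in the Bad configuration some element of T has class size m n, or some element of Z(T) is
-- not central in G.
import Cfsg.Agent.Lib.Helper41.CS3.GoodDefs
import Cfsg.Agent.Lib.Helper24.CS3.Basics
import Cfsg.Agent.Lib.Helper71.CS3.Basics

set_option autoImplicit false

namespace Cfsg.Agent.Lib.Helper61.CS3

open Cfsg.Agent.Lib.Helper41.CS3 Cfsg.Agent.Lib.Helper81.CS3

universe u

section tools

variable {G : Type u} [Group G]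

/-- `t ∤ m` when `n = t ^ k > 1` is coprime to `m`. -/
theorem not_dvd_m {m n t : ℕ} (hyp : Hyp G m n) (htp : t.Prime) (htn : ∃ k : ℕ, n = t ^ k) :
    ¬ t ∣ m := by
  obtain ⟨k, hk⟩ := htn
  have hn := hyp.2.2.1
  have hcop := hyp.2.2.2.1
  have hk0 : k ≠ 0 := by
    rintro rfl
    rw [pow_zero] at hk
    omega
  have htn' : t ∣ n := by rw [hk]; exact dvd_pow_self t hk0
  intro htm
  have h1 : t ∣ Nat.gcd m n := Nat.dvd_gcd htm htn'
  rw [hcop.gcd_eq_one] at h1
  exact htp.one_lt.ne' (Nat.dvd_one.mp h1)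

/-- An element of `G` commuting with a subgroup `T` of index prime to `t`, of `t`-power order,
lies in `T`. -/
theorem mem_of_centralizes [Finite G] {t : ℕ} [Fact t.Prime] {T : Subgroup G}
    (hT : IsPGroup t T) (hsyl : ¬ t ∣ T.index) {x : G} (hx : ∃ k : ℕ, orderOf x = t ^ k)
    (hc : ∀ z ∈ T, x * z = z * x) : x ∈ T := by
  obtain ⟨k, hk⟩ := hx
  have hpz : IsPGroup t (Subgroup.zpowers x) := by
    apply IsPGroup.of_card (n := k)
    rw [Nat.card_zpowers, hk]
  have hle : Subgroup.zpowers x ≤ Subgroup.normalizer T := by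
    rw [Subgroup.zpowers_le, Subgroup.mem_normalizer_iff]
    intro h
    constructor
    · intro hh
      rw [hc h hh, mul_inv_cancel_right]
      exact hh
    · intro hh
      have h1 := hc _ hh
      have h3 : x * (x * h * x⁻¹) = x * h := by rw [h1]; group
      rw [← mul_left_cancel h3]
      exact hh
  have hsup : IsPGroup t (Subgroup.zpowers x ⊔ T : Subgroup G) :=
    IsPGroup.to_sup_of_normal_right' hpz hT hle
  have heq := (hT.toSylow hsyl).is_maximal' hsup (le_sup_right (a := Subgroup.zpowers x) (b := T))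
  have hmem : x ∈ (Subgroup.zpowers x ⊔ T : Subgroup G) :=
    Subgroup.mem_sup_left (Subgroup.mem_zpowers x)
  rw [heq] at hmem
  exact hmem

theorem orderOf_conj' (g y : G) : orderOf (g⁻¹ * y * g) = orderOf y := by
  have h := orderOf_injective (MulAut.conj g⁻¹ : G →* G) (MulAut.conj g⁻¹).injective y
  simpa [MulAut.conj_apply] using h

end tools

/-- [S1] -/
theorem pkgS1_of (hSylow : PkgSylow.{u}) : PkgS1.{u} := by
  intro G _ _ m n hyp s t a Sa T B hgood hbad
  by_cases hex : ∃ y1 ∈ T, ix y1 = m * n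
  · obtain ⟨y1, hy1, h⟩ := hex
    exact ⟨y1, hy1, Or.inl h⟩
  · push Not at hex
    have htp := hbad.tp
    have : Fact t.Prime := ⟨htp⟩
    have hnab := hbad.nab
    unfold Cfsg.Agent.Lib.Helper41.CS3.Ab at hnab
    push Not at hnab
    obtain ⟨y', hy'T, z0, hz0T, hne⟩ := hnab
    have hy'nc : y' ∉ Subgroup.center G := fun h =>
      hne ((Subgroup.mem_center_iff.mp h z0).symm)
    have hix : ix y' = m := by
      rcases Cfsg.Agent.Lib.Helper24.CS3.index_mem hyp y' with h | h | h
      · exact absurd ((Cfsg.Agent.Lib.Helper71.CS3.idx_eq_one_iff y').mp h) hy'nc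
      · exact h
      · exact absurd h (hex y' hy'T)
    have htm : ¬ t ∣ m := not_dvd_m hyp htp hbad.tn
    obtain ⟨g, hg⟩ := hSylow t htp T (Cn y') hbad.pT (by rw [show (Cn y').index = m from hix]; exact htm)
    have hcent : ∀ z ∈ T, (g⁻¹ * y' * g) * z = z * (g⁻¹ * y' * g) := by
      intro z hz
      have h1 := hg z hz
      rw [Subgroup.mem_centralizer_singleton_iff] at h1
      calc g⁻¹ * y' * g * z = g⁻¹ * (y' * (g * z * g⁻¹)) * g := by group
        _ = g⁻¹ * ((g * z * g⁻¹) * y') * g := by rw [h1]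
        _ = z * (g⁻¹ * y' * g) := by group
    refine ⟨g⁻¹ * y' * g, ?_, Or.inr ⟨hcent, ?_⟩⟩
    · apply mem_of_centralizes hbad.pT hbad.sylT _ hcent
      obtain ⟨k, hk⟩ := (IsPGroup.iff_orderOf.mp hbad.pT) ⟨y', hy'T⟩
      refine ⟨k, ?_⟩
      rw [orderOf_conj', ← hk, Subgroup.orderOf_mk]
    · intro h
      apply hy'nc
      have h2 := (inferInstance : (Subgroup.center G).Normal).conj_mem _ h g
      have h3 : g * (g⁻¹ * y' * g) * g⁻¹ = y' := by group
      rw [h3] at h2
      exact h2

end Cfsg.Agent.Lib.Helper61.CS3
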