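-- Team project CS3 (S4284), part GOOD, package [S2] (helper61): Step 2 of "N is abelian":
-- the Bad configuration C(a) = Sa × T × B becomes Conf: C(a) = A × T with A = Sa ⊔ B abelian
-- and C_G(T) ≤ C(a).
import Cfsg.Agent.Lib.Helper61.CS3.GoodS1

set_option autoImplicit false

namespace Cfsg.Agent.Lib.Helper61.CS3

open Cfsg.Agent.Lib.Helper41.CS3 Cfsg.Agent.Lib.Helper81.CS3

universe u

section tools

variable {G : Type u} [Group G]

theorem comm_symm {A B : Subgroup G} (h : Comm A B) : Comm B A :=
  fun x hx y hy => (h y hy x hx).symm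

theorem comm_sup_left {A B C : Subgroup G} (h1 : Comm A C) (h2 : Comm B C) :
    Comm (A ⊔ B) C := by
  intro x hx y hy
  have hle : A ⊔ B ≤ Subgroup.centralizer ({y} : Set G) := by
    apply sup_le
    · intro z hz
      exact Subgroup.mem_centralizer_singleton_iff.mpr (h1 z hz y hy)
    · intro z hz
      exact Subgroup.mem_centralizer_singleton_iff.mpr (h2 z hz y hy)
  exact Subgroup.mem_centralizer_singleton_iff.mp (hle hx)

theorem comm_sup_right {A B C : Subgroup G} (h1 : Comm C A) (h2 : Comm C B) :
    Comm C (A ⊔ B) :=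
  comm_symm (comm_sup_left (comm_symm h1) (comm_symm h2))

/-- The order of the join of two commuting subgroups divides the product of the orders. -/
theorem card_sup_dvd [Finite G] {X Y : Subgroup G} (h : Comm X Y) :
    Nat.card (X ⊔ Y : Subgroup G) ∣ Nat.card X * Nat.card Y := by
  have hc : ∀ (x : X) (y : Y), Commute (X.subtype x) (Y.subtype y) := fun x y => h x x.2 y y.2
  have h1 := MonoidHom.noncommCoprod_range X.subtype Y.subtype hc
  rw [Subgroup.range_subtype, Subgroup.range_subtype] at h1
  have h2 := Subgroup.card_range_dvd (MonoidHom.noncommCoprod X.subtype Y.subtype hc)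
  rw [h1, Nat.card_prod] at h2
  exact h2

/-- `D ≤ H`: `|H : D| * |D| = |H|`. -/
theorem relIndex_mul_card [Finite G] {D H : Subgroup G} (h : D ≤ H) :
    D.relIndex H * Nat.card D = Nat.card H := by
  have e1 := Subgroup.relIndex_mul_index h
  have e2 := Subgroup.card_mul_index D
  have e3 := Subgroup.card_mul_index H
  have hHpos : 0 < H.index := Nat.pos_of_ne_zero Subgroup.index_ne_zero_of_finite
  apply Nat.eq_of_mul_eq_mul_right hHpos
  calc D.relIndex H * Nat.card D * H.index = Nat.card D * (D.relIndex H * H.index) := by ring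
    _ = Nat.card D * D.index := by rw [e1]
    _ = Nat.card G := e2
    _ = Nat.card H * H.index := e3.symm

end tools

/-- [S2] -/
theorem pkgS2 : PkgS2.{u} := by
  intro G _ _ m n hyp s t a Sa T B hgood hbad y1 hy1T hy1
  have htp := hbad.tp
  have hsp := hgood.sp
  have : Fact t.Prime := ⟨htp⟩
  have hsF : Fact s.Prime := ⟨hsp⟩
  have htm : ¬ t ∣ m := not_dvd_m hyp htp hbad.tn
  have hst : s ≠ t := by
    rintro rfl
    exact htm hgood.sm
  have hcop_st : Nat.Coprime s t := (Nat.coprime_primes hsp htp).mpr hst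
  have hordS : ∀ x ∈ Sa, ∃ k : ℕ, orderOf x = s ^ k := fun x hx => by
    obtain ⟨k, hk⟩ := (IsPGroup.iff_orderOf.mp hbad.pS) ⟨x, hx⟩
    exact ⟨k, by rw [← hk, Subgroup.orderOf_mk]⟩
  have hordT : ∀ x ∈ T, ∃ k : ℕ, orderOf x = t ^ k := fun x hx => by
    obtain ⟨k, hk⟩ := (IsPGroup.iff_orderOf.mp hbad.pT) ⟨x, hx⟩
    exact ⟨k, by rw [← hk, Subgroup.orderOf_mk]⟩
  have hco : ∀ x ∈ Sa, ∀ y ∈ T, (orderOf y).Coprime (orderOf x) := by
    intro x hx y hy
    obtain ⟨k, hk⟩ := hordS x hx
    obtain ⟨l, hl⟩ := hordT y hy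
    rw [hk, hl]
    exact Nat.Coprime.pow _ _ hcop_st.symm
  have hSa_le : Sa ≤ Cn a := by rw [← hbad.sup]; exact le_sup_of_le_left le_sup_left
  have hT_le : T ≤ Cn a := by rw [← hbad.sup]; exact le_sup_of_le_left le_sup_right
  have hB_le : B ≤ Cn a := by rw [← hbad.sup]; exact le_sup_right
  have hmax : ∀ g : G, (Subgroup.centralizer ({g} : Set G)).index ≤ m * n :=
    Cfsg.Agent.Lib.Helper24.CS3.index_le hyp
  have hkey : Cn y1 ≤ Cn a ∧ Ab Sa := by
    rcases hy1 with h | ⟨hz, hnc⟩
    · constructor
      · apply Cfsg.Agent.Lib.Helper24.CS3.cent_le_of_max hmax y1 a h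
        · exact Subgroup.mem_centralizer_singleton_iff.mp (hT_le hy1T)
        · obtain ⟨k, hk⟩ := hgood.prim
          obtain ⟨l, hl⟩ := hordT y1 hy1T
          rw [hk, hl]
          exact Nat.Coprime.pow _ _ hcop_st.symm
      · intro x hx y hy
        have h1 := Cfsg.Agent.Lib.Helper24.CS3.cent_le_of_max hmax y1 y h
          (hbad.sa_t y hy y1 hy1T).symm (hco y hy y1 hy1T)
        have h2 : x ∈ Subgroup.centralizer ({y1} : Set G) :=
          Subgroup.mem_centralizer_singleton_iff.mpr (hbad.sa_t x hx y1 hy1T)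
        exact Subgroup.mem_centralizer_singleton_iff.mp (h1 h2)
    · have hle : Cn a ≤ Cn y1 := by
        rw [← hbad.sup]
        refine sup_le (sup_le ?_ ?_) ?_
        · intro x hx
          exact Subgroup.mem_centralizer_singleton_iff.mpr (hbad.sa_t x hx y1 hy1T)
        · intro x hx
          exact Subgroup.mem_centralizer_singleton_iff.mpr (hz x hx).symm
        · intro x hx
          exact Subgroup.mem_centralizer_singleton_iff.mpr (hbad.t_b y1 hy1T x hx).symm
      have hm := hyp.2.1
      have hn := hyp.2.2.1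
      have hixy1 : ix y1 = m := by
        rcases Cfsg.Agent.Lib.Helper24.CS3.index_mem hyp y1 with h | h | h
        · exact absurd ((Cfsg.Agent.Lib.Helper71.CS3.idx_eq_one_iff y1).mp h) hnc
        · exact h
        · exfalso
          have hd := Subgroup.index_dvd_of_le hle
          rw [show (Cn a).index = m from hgood.ixa, show (Cn y1).index = m * n from h] at hd
          have h3 := Nat.le_of_dvd (by omega) hd
          nlinarith
      have heq : Cn y1 = Cn a := by
        have h1 := Subgroup.relIndex_mul_index hle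
        rw [show (Cn a).index = m from hgood.ixa, show (Cn y1).index = m from hixy1] at h1
        have h2 : (Cn a).relIndex (Cn y1) = 1 := by
          have h3 : (Cn a).relIndex (Cn y1) * m = 1 * m := by rw [h1, one_mul]
          exact Nat.eq_of_mul_eq_mul_right (by omega) h3
        exact le_antisymm (Subgroup.relIndex_eq_one.mp h2) hle
      constructor
      · exact heq.le
      · intro x hx w hw
        have hB4 := Cfsg.Agent.Lib.Helper24.CS3.relIndex_of_coprime hyp y1 w hixy1
          (hbad.sa_t w hw y1 hy1T).symm (hco w hw y1 hy1T)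
        rw [show Subgroup.centralizer ({y1} : Set G) = Cn a from heq] at hB4
        have hD_le_w : T ⊔ B ≤ Cn w := by
          refine sup_le ?_ ?_
          · intro z hz
            exact Subgroup.mem_centralizer_singleton_iff.mpr (hbad.sa_t w hw z hz).symm
          · intro z hz
            exact Subgroup.mem_centralizer_singleton_iff.mpr (hbad.sa_b w hw z hz).symm
        have hD_le : T ⊔ B ≤ Cn a := sup_le hT_le hB_le
        have hdvd1 : (Cn w).relIndex (Cn a) ∣ (T ⊔ B : Subgroup G).relIndex (Cn a) :=
          Subgroup.relIndex_dvd_of_le_left (Cn a) hD_le_w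
        have hdvd2 : (T ⊔ B : Subgroup G).relIndex (Cn a) ∣ Nat.card Sa := by
          have e4 : Nat.card (Cn a) ∣ Nat.card Sa * Nat.card (T ⊔ B : Subgroup G) := by
            have h5 := card_sup_dvd (comm_sup_right hbad.sa_t hbad.sa_b)
            rwa [← sup_assoc, hbad.sup] at h5
          rw [← relIndex_mul_card hD_le] at e4
          exact Nat.dvd_of_mul_dvd_mul_right Nat.card_pos e4
        have hrel1 : (Cn w).relIndex (Cn a) = 1 := by
          rcases hB4 with h | h
          · exact h
          · exfalso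
            have hn_dvd : n ∣ Nat.card Sa := h ▸ (hdvd1.trans hdvd2)
            obtain ⟨k, hk⟩ := IsPGroup.iff_card.mp hbad.pS
            obtain ⟨j, hj⟩ := hbad.tn
            have hj0 : j ≠ 0 := by
              rintro rfl
              rw [pow_zero] at hj
              omega
            have ht_dvd : t ∣ s ^ k := by
              rw [← hk]
              exact (dvd_pow_self t hj0).trans (hj ▸ hn_dvd)
            have h6 := (Nat.prime_dvd_prime_iff_eq htp hsp).mp (htp.dvd_of_dvd_pow ht_dvd)
            exact hst h6.symm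
        have hle2 : Cn a ≤ Cn w := Subgroup.relIndex_eq_one.mp hrel1
        exact Subgroup.mem_centralizer_singleton_iff.mp (hle2 (hSa_le hx))
  obtain ⟨hcent, hSaAb⟩ := hkey
  refine ⟨Sa ⊔ B, ⟨htp, hbad.tn, ?_, ?_, ?_, ?_, hbad.pT, hbad.sylT, hbad.nab, hbad.cls, ?_⟩⟩
  · exact comm_sup_left (comm_sup_right hSaAb hbad.sa_b)
      (comm_sup_right (comm_symm hbad.sa_b) hbad.b_ab)
  · exact comm_sup_left hbad.sa_t (comm_symm hbad.t_b)
  · rw [sup_right_comm]
    exact hbad.sup
  · have h1 := card_sup_dvd hbad.sa_b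
    obtain ⟨k, hk⟩ := IsPGroup.iff_card.mp hbad.pS
    apply Nat.Coprime.coprime_dvd_left h1
    rw [hk]
    exact Nat.Coprime.mul_left (Nat.Coprime.pow_left k hcop_st) hbad.copB
  · intro x hx
    apply hcent
    rw [Subgroup.mem_centralizer_singleton_iff]
    exact (Subgroup.mem_centralizer_iff.mp hx y1 hy1T).symm

end Cfsg.Agent.Lib.Helper61.CS3
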