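-- Team project CS3 (S4284), part GOOD, package [S3] (helper61): Step 3 of "N is abelian":
-- in the configuration Conf every centralizer of index m is conjugate to C(a).
import Cfsg.Agent.Lib.Helper61.CS3.GoodS2

set_option autoImplicit false

namespace Cfsg.Agent.Lib.Helper61.CS3

open Cfsg.Agent.Lib.Helper41.CS3 Cfsg.Agent.Lib.Helper81.CS3

universe u

section tools

variable {G : Type u} [Group G]

theorem mem_Cn_conj (g x z : G) : z ∈ Cn (g * x * g⁻¹) ↔ g⁻¹ * z * g ∈ Cn x := by
  rw [Subgroup.mem_centralizer_singleton_iff, Subgroup.mem_centralizer_singleton_iff]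
  constructor
  · intro h
    calc g⁻¹ * z * g * x = g⁻¹ * (z * (g * x * g⁻¹)) * g := by group
      _ = g⁻¹ * (g * x * g⁻¹ * z) * g := by rw [h]
      _ = x * (g⁻¹ * z * g) := by group
  · intro h
    calc z * (g * x * g⁻¹) = g * (g⁻¹ * z * g * x) * g⁻¹ := by group
      _ = g * (x * (g⁻¹ * z * g)) * g⁻¹ := by rw [h]
      _ = g * x * g⁻¹ * z := by group

theorem mem_Cn_conj' (g x z : G) : z ∈ Cn (g⁻¹ * x * g) ↔ g * z * g⁻¹ ∈ Cn x := by
  have h := mem_Cn_conj g⁻¹ x z
  rw [inv_inv] at h
  exact h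

theorem eq_of_le_of_index_eq [Finite G] {H K : Subgroup G} (h : H ≤ K)
    (hi : H.index = K.index) : H = K := by
  have h1 := Subgroup.relIndex_mul_index h
  have hKpos : 0 < K.index := Nat.pos_of_ne_zero Subgroup.index_ne_zero_of_finite
  have h2 : H.relIndex K = 1 := by
    have h3 : H.relIndex K * K.index = 1 * K.index := by rw [h1, one_mul, hi]
    exact Nat.eq_of_mul_eq_mul_right hKpos h3
  exact le_antisymm h (Subgroup.relIndex_eq_one.mp h2)

/-- A conjugate of a non-central element is not central. -/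
theorem conj_not_mem_center {g v : G} (h : v ∉ Subgroup.center G) :
    g⁻¹ * v * g ∉ Subgroup.center G := by
  intro h1
  apply h
  have h2 := (inferInstance : (Subgroup.center G).Normal).conj_mem _ h1 g
  have h3 : g * (g⁻¹ * v * g) * g⁻¹ = v := by group
  rw [h3] at h2
  exact h2

end tools

/-- [S3] -/
theorem pkgS3_of (hSylow : PkgSylow.{u}) : PkgS3.{u} := by
  intro G _ _ m n hyp t a A T hixa hconf v hixv
  have htp := hconf.tp
  have hm := hyp.2.1
  have hn := hyp.2.2.1
  have htm : ¬ t ∣ m := not_dvd_m hyp htp hconf.tn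
  obtain ⟨g, hg⟩ := hSylow t htp T (Cn v) hconf.pT
    (by rw [show (Cn v).index = m from hixv]; exact htm)
  have hcT : g⁻¹ * v * g ∈ Subgroup.centralizer (T : Set G) := by
    rw [Subgroup.mem_centralizer_iff]
    intro z hz
    have h1 := Subgroup.mem_centralizer_singleton_iff.mp (hg z hz)
    calc z * (g⁻¹ * v * g) = g⁻¹ * ((g * z * g⁻¹) * v) * g := by group
      _ = g⁻¹ * (v * (g * z * g⁻¹)) * g := by rw [h1]
      _ = g⁻¹ * v * g * z := by group
  have hva : g⁻¹ * v * g ∈ Cn a := hconf.cent hcT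
  have hle : Cn a ≤ Cn (g⁻¹ * v * g) := by
    have hva' : g⁻¹ * v * g ∈ A ⊔ T := by rw [hconf.sup]; exact hva
    rw [← hconf.sup]
    refine sup_le ?_ ?_
    · intro x hx
      exact Subgroup.mem_centralizer_singleton_iff.mpr
        (comm_sup_right hconf.a_ab hconf.a_t x hx _ hva')
    · intro x hx
      exact Subgroup.mem_centralizer_singleton_iff.mpr (Subgroup.mem_centralizer_iff.mp hcT x hx)
  have hvnc : v ∉ Subgroup.center G := by
    intro h
    have h1 := (Cfsg.Agent.Lib.Helper71.CS3.idx_eq_one_iff v).mpr h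
    rw [show (Subgroup.centralizer ({v} : Set G)).index = m from hixv] at h1
    omega
  have hixv'' : ix (g⁻¹ * v * g) = m := by
    rcases Cfsg.Agent.Lib.Helper24.CS3.index_mem hyp (g⁻¹ * v * g) with h | h | h
    · exact absurd ((Cfsg.Agent.Lib.Helper71.CS3.idx_eq_one_iff _).mp h)
        (conj_not_mem_center hvnc)
    · exact h
    · exfalso
      have hd := Subgroup.index_dvd_of_le hle
      rw [show (Cn a).index = m from hixa, show (Cn (g⁻¹ * v * g)).index = m * n from h] at hd
      have h3 := Nat.le_of_dvd (by omega) hd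
      nlinarith
  have heq : Cn a = Cn (g⁻¹ * v * g) :=
    eq_of_le_of_index_eq hle (by rw [show (Cn a).index = m from hixa]; exact hixv''.symm)
  refine ⟨g, ?_⟩
  ext z
  have h4 : g * (g⁻¹ * z * g) * g⁻¹ = z := by group
  constructor
  · intro hz
    rw [mem_Cn_conj, heq, mem_Cn_conj', h4]
    exact hz
  · intro hz
    rw [mem_Cn_conj, heq, mem_Cn_conj', h4] at hz
    exact hz

end Cfsg.Agent.Lib.Helper61.CS3
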